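import Cfsg.Agent.H129.IF.QCard
import Cfsg.Agent.H430.CfChevTab
import Cfsg.Agent.S2174

/-!
# S5719, `F₄(q)`, `q` even: involutions are conjugate into `Q`, index of `N(X_θ)` (helper654)
-/

set_option autoImplicit false

namespace Cfsg.Agent.H654.IF

open Cfsg.Lie Cfsg.Agent.ChevalleyStructure Cfsg.Agent.ChevalleyStructure.Elts Cfsg.Agent.ChevalleyStructure.RootSupport
  Cfsg.Agent.ChevalleyStructure.RootCombGood Cfsg.Agent.ChevalleyStructure.RootVec Cfsg.Agent.H86.Lev
  Cfsg.Agent.H86.Graded Cfsg.Agent.H430.CfChev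
open Cfsg.Agent.H70.ChevFix (XX)

universe u

theorem inF4 : InList chevF4 := by simp [InList]

/-- `1 ≤ car 47 r` for the roots of the four representatives -/
theorem car_rep : ∀ r ∈ [47, 44, 39, 45], r < chevF4.nroots ∧ 1 ≤ car chevF4 47 r := by decide +kernel

/-- **every involution of `F₄(q)`, `q` even, is conjugate into `Q`** -/
theorem exists_conj_Q {F : Type u} [Field F] [Fintype F] [CharP F 2] {t : ↥(chevF4.group F)} (ho : orderOf t = 2) :
    ∃ g : ↥(chevF4.group F), g * t * g⁻¹ ∈ H129.IFE.QT chevF4 F 47 := by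
  obtain ⟨-, h, -⟩ := S2174.result (F := F)
  have ho' : orderOf (t : GL chevF4.Idx F) = 2 := by
    rw [← ho]
    exact orderOf_injective (chevF4.group F).subtype Subtype.val_injective t
  obtain ⟨y, hy, hm, g, hg, e⟩ := h t t.2 ho'
  refine ⟨⟨g, hg⟩, ?_⟩
  show g * (t : GL chevF4.Idx F) * g⁻¹ ∈ Q chevF4 F 47
  rw [e]
  have key : ∀ r ∈ [47, 44, 39, 45], xG inF4 r (1 : F) ∈ Q chevF4 F 47 := fun r hr =>
    xG_mem_Q inF4 (car_rep r hr).1 (car_rep r hr).2 1
  simp only [List.mem_cons, List.not_mem_nil, or_false] at hm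
  rcases hm with hm | hm | hm | hm
  · rw [show y = xG inF4 47 (1 : F) from Units.ext (by rw [hm, coe_xG])]
    exact key 47 (by simp)
  · rw [show y = xG inF4 44 (1 : F) from Units.ext (by rw [hm, coe_xG])]
    exact key 44 (by simp)
  · rw [show y = xG inF4 47 (1 : F) * xG inF4 44 (1 : F) from Units.ext (by
      rw [hm, Units.val_mul, coe_xG, coe_xG])]
    exact mul_mem (key 47 (by simp)) (key 44 (by simp))
  · rw [show y = xG inF4 39 (1 : F) * xG inF4 45 (1 : F) from Units.ext (by
      rw [hm, Units.val_mul, coe_xG, coe_xG])]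
    exact mul_mem (key 39 (by simp)) (key 45 (by simp))

/-- **the index of `N(X_θ)`** -/
theorem index_norm {F : Type u} [Field F] [Fintype F] :
    (Subgroup.normalizer (XX chevF4 F 47 : Set ↥(chevF4.group F))).index ≤ 3 * Fintype.card F ^ 15 := by
  have h := index_normalizer_le (F := F) inF4 (distOk chkdF4)
  have h1 : (OF4.map fun r => Nat.card F ^ dlF4.getD r 0) = LF4.map fun x => Nat.card F ^ x := by
    rw [← LF4_eq, List.map_map]
    rfl
  rw [h1] at h
  have h2 := (sum_le Finite.one_lt_card LF4 15 LF4_le).trans (Nat.mul_le_mul_right (Nat.card F ^ 15) carryF4)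
  have h3 := h.trans h2
  rwa [Nat.card_eq_fintype_card] at h3

end Cfsg.Agent.H654.IF
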